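import Mathlib.RingTheory.Invariant.Galois
import Mathlib.RingTheory.Unramified.Field
import Mathlib.RingTheory.Etale.Basic

/-!
Residue fields of a finite etale algebra over a field with a finite group acting with invariants the field.
-/

set_option autoImplicit false
open scoped Pointwise
universe u

namespace Groth.Agent.Pi1.H408.FieldQuot

/-- Let `K` be a field, `B` a finite unramified `K`-algebra with an action of a finite group `G` such that
`B^G = K`, and `B → L` a surjective `K`-algebra map to a field. Then `L/K` is Galois and its degree divides the order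
of `G`. -/
theorem isGalois_and_finrank_dvd {K B L : Type*} [Field K] [CommRing B] [Algebra K B]
    [Module.Finite K B] [Algebra.FormallyUnramified K B] [Field L] [Algebra K L]
    (G : Type*) [Group G] [Finite G] [MulSemiringAction G B] [SMulCommClass G K B]
    [Algebra.IsInvariant K B G] (φ : B →ₐ[K] L) (hφ : Function.Surjective φ) :
    IsGalois K L ∧ FiniteDimensional K L ∧ Module.finrank K L ∣ Nat.card G := by
  have hfin : FiniteDimensional K L := Module.Finite.of_surjective φ.toLinearMap hφ
  have hunr : Algebra.FormallyUnramified K L := by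
    algebraize [φ.toRingHom]
    have : Algebra.FormallyUnramified B L := Algebra.FormallyUnramified.of_surjective (Algebra.ofId B L) hφ
    have : IsScalarTower K B L := IsScalarTower.of_algebraMap_eq fun x => (φ.commutes x).symm
    exact Algebra.FormallyUnramified.comp K B L
  have hsep : Algebra.IsSeparable K L := Algebra.FormallyUnramified.isSeparable K L
  let P : Ideal K := ⊥
  let Q : Ideal B := RingHom.ker φ
  have hQ : Q.IsPrime := RingHom.ker_isPrime φ
  have hQP : Q.LiesOver P := ⟨(by
    ext x
    simp only [P, Q, Ideal.mem_bot, Ideal.under_def, Ideal.mem_comap, RingHom.mem_ker, AlgHom.commutes,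
      map_eq_zero])⟩
  letI : Algebra (K ⧸ P) K := (Ideal.Quotient.lift P (RingHom.id K) (by simp [P])).toAlgebra
  letI : Algebra (B ⧸ Q) L := (Ideal.Quotient.lift Q φ.toRingHom (fun a ha => ha)).toAlgebra
  letI : Algebra (K ⧸ P) L := ((algebraMap K L).comp (algebraMap (K ⧸ P) K)).toAlgebra
  have hst1 : IsScalarTower (K ⧸ P) K L := IsScalarTower.of_algebraMap_eq fun x => rfl
  have hst2 : IsScalarTower (K ⧸ P) (B ⧸ Q) L := IsScalarTower.of_algebraMap_eq fun x => by
    obtain ⟨x, rfl⟩ := Ideal.Quotient.mk_surjective x
    exact (φ.commutes x).symm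
  have hinj1 : Function.Injective (algebraMap (K ⧸ P) K) := by
    rw [injective_iff_map_eq_zero]
    intro x hx
    obtain ⟨x, rfl⟩ := Ideal.Quotient.mk_surjective x
    change x = 0 at hx
    rw [hx, map_zero]
  have hinj2 : Function.Injective (algebraMap (B ⧸ Q) L) := by
    rw [injective_iff_map_eq_zero]
    intro x hx
    obtain ⟨x, rfl⟩ := Ideal.Quotient.mk_surjective x
    change φ x = 0 at hx
    exact Ideal.Quotient.eq_zero_iff_mem.mpr hx
  have hf1 : FaithfulSMul (K ⧸ P) K := (faithfulSMul_iff_algebraMap_injective _ _).mpr hinj1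
  have hf2 : FaithfulSMul (B ⧸ Q) L := (faithfulSMul_iff_algebraMap_injective _ _).mpr hinj2
  have hfr1 : IsFractionRing (K ⧸ P) K := IsFractionRing.of_field _ _ fun z =>
    ⟨Ideal.Quotient.mk P z, 1, by rw [map_one, div_one]; rfl⟩
  have hfr2 : IsFractionRing (B ⧸ Q) L := IsFractionRing.of_field _ _ fun z => by
    obtain ⟨b, rfl⟩ := hφ z
    exact ⟨Ideal.Quotient.mk Q b, 1, by rw [map_one, div_one]; rfl⟩
  have hnorm : Normal K L := Ideal.IsFractionRing.normal G P Q K L
  have hgal : IsGalois K L := { }
  refine ⟨hgal, hfin, ?_⟩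
  have hs := IsFractionRing.stabilizerHom_surjective G P Q K L
  rw [← IsGalois.card_aut_eq_finrank]
  exact (Subgroup.card_dvd_of_surjective _ hs).trans (Subgroup.card_subgroup_dvd_card _)

end Groth.Agent.Pi1.H408.FieldQuot
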