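import Groth.Prelude.Def_SGA1t
import Mathlib.CategoryTheory.Endomorphism

/-!
Base change of principal covers.
-/

set_option autoImplicit false
set_option backward.isDefEq.respectTransparency false
universe u v
open CategoryTheory CategoryTheory.Limits AlgebraicGeometry

namespace Groth.Agent.Pi1.H408.PrincRestrict

/-- The base change of a principal `G`-cover is principal. -/
theorem isPrincipal_restrict {Y Y' : Scheme.{u}} (g : Y' ⟶ Y) {G : Type v} [Group G] (P : FEt.Cat Y)
    (ρ : G →* Aut P) (hP : SGA1t.IsPrincipal G P ρ) :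
    SGA1t.IsPrincipal G ((FEt.restrict g).obj P) (((FEt.restrict g).mapAut P).comp ρ) := by
  obtain ⟨h1, h2⟩ := hP
  refine ⟨?_, ?_⟩
  · have : Surjective P.hom := ⟨h1⟩
    have h3 : Surjective (pullback.snd P.hom g) := inferInstance
    exact h3.surj
  · intro Ω _ _ ξ s t
    have hs : (s.1 ≫ pullback.fst P.hom g) ≫ P.hom = ξ ≫ g := by
      rw [Category.assoc, pullback.condition, ← Category.assoc]
      congr 1
      exact s.2
    have ht : (t.1 ≫ pullback.fst P.hom g) ≫ P.hom = ξ ≫ g := by
      rw [Category.assoc, pullback.condition, ← Category.assoc]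
      congr 1
      exact t.2
    have key : ∀ γ : G, (FEt.fiber ξ).map (((((FEt.restrict g).mapAut P).comp ρ) γ).hom) s = t ↔
        (FEt.fiber (ξ ≫ g)).map (ρ γ).hom ⟨s.1 ≫ pullback.fst P.hom g, hs⟩ =
          ⟨t.1 ≫ pullback.fst P.hom g, ht⟩ := by
      intro γ
      have e1 : ((FEt.restrict g).map (ρ γ).hom).left ≫ pullback.fst P.hom g =
          pullback.fst P.hom g ≫ (ρ γ).hom.left := pullback.lift_fst _ _ _
      constructor
      · intro h
        apply Subtype.ext
        have h' := congrArg Subtype.val h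
        change s.1 ≫ ((FEt.restrict g).map (ρ γ).hom).left = t.1 at h'
        change (s.1 ≫ pullback.fst P.hom g) ≫ (ρ γ).hom.left = t.1 ≫ pullback.fst P.hom g
        rw [← h', Category.assoc, Category.assoc, e1]
      · intro h
        apply Subtype.ext
        have h' := congrArg Subtype.val h
        change (s.1 ≫ pullback.fst P.hom g) ≫ (ρ γ).hom.left = t.1 ≫ pullback.fst P.hom g at h'
        change s.1 ≫ ((FEt.restrict g).map (ρ γ).hom).left = t.1
        apply pullback.hom_ext
        · rw [Category.assoc, e1, ← Category.assoc, h']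
        · rw [Category.assoc]
          have e2 : ((FEt.restrict g).map (ρ γ).hom).left ≫ pullback.snd P.hom g =
            pullback.snd P.hom g := pullback.lift_snd _ _ _
          rw [e2]
          exact s.2.trans t.2.symm
    obtain ⟨γ, hγ, huniq⟩ := h2 Ω (ξ ≫ g) ⟨s.1 ≫ pullback.fst P.hom g, hs⟩ ⟨t.1 ≫ pullback.fst P.hom g, ht⟩
    exact ⟨γ, (key γ).mpr hγ, fun γ' hγ' => huniq γ' ((key γ').mp hγ')⟩

end Groth.Agent.Pi1.H408.PrincRestrict
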