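import Groth.Agent.CycB.LocQuot
import Mathlib.RingTheory.DiscreteValuationRing.Basic

/-!
The residue field of a proper generization of a point whose local ring is a DVR is the fraction field.
-/

set_option autoImplicit false
universe u

open AlgebraicGeometry CategoryTheory TopologicalSpace

namespace Groth.Agent.Pi1.H408.FracRes

open Groth.Agent.CycB.LocQuot

variable {X : Scheme.{u}}

/-- The prime of `O_{X,x}` attached to a proper generization is not maximal. -/
theorem ker_specMap_ne {x ξ : X} (h : ξ ⤳ x) (hne : ξ ≠ x) :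
    RingHom.ker (Cyc.specMap x ξ h) ≠ IsLocalRing.maximalIdeal (X.presheaf.stalk x) := by
  intro hk
  apply hne
  have h1 : Spec.map (X.presheaf.stalkSpecializes h) (IsLocalRing.closedPoint (X.presheaf.stalk ξ)) =
      IsLocalRing.closedPoint (X.presheaf.stalk x) := by
    change primeOf h = _
    apply PrimeSpectrum.ext
    rw [primeOf_asIdeal, hk]
    rfl
  have h2 := congr($(Scheme.SpecMap_stalkSpecializes_fromSpecStalk h) (IsLocalRing.closedPoint (X.presheaf.stalk ξ)))
  rw [Scheme.Hom.comp_apply, h1, Scheme.fromSpecStalk_closedPoint, Scheme.fromSpecStalk_closedPoint] at h2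
  exact h2.symm

/-- If `O_{X,x}` is a DVR and `ξ` is a proper generization of `x`, then `κ(ξ)` is the fraction field of `O_{X,x}`. -/
theorem isFractionRing_residueField {x ξ : X} (h : ξ ⤳ x) (hne : ξ ≠ x)
    [IsDomain (X.presheaf.stalk x)] (hx : IsDiscreteValuationRing (X.presheaf.stalk x)) :
    @IsFractionRing (X.presheaf.stalk x) _ (X.residueField ξ) _
      ((X.residue ξ).hom.comp (X.presheaf.stalkSpecializes h).hom).toAlgebra := by
  letI : Algebra (X.presheaf.stalk x) (X.residueField ξ) :=
    ((X.residue ξ).hom.comp (X.presheaf.stalkSpecializes h).hom).toAlgebra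
  have hmap : Cyc.specMap x ξ h = algebraMap (X.presheaf.stalk x) (X.residueField ξ) := rfl
  have hker : RingHom.ker (Cyc.specMap x ξ h) = ⊥ := by
    by_contra hb
    have hm : (RingHom.ker (Cyc.specMap x ξ h)).IsMaximal :=
      Ideal.IsPrime.isMaximal (inferInstance : (RingHom.ker (Cyc.specMap x ξ h)).IsPrime) hb
    exact ker_specMap_ne h hne (IsLocalRing.eq_maximalIdeal hm)
  have hinj : Function.Injective (algebraMap (X.presheaf.stalk x) (X.residueField ξ)) := by
    rw [← hmap]; exact (RingHom.injective_iff_ker_eq_bot _).mpr hker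
  have hf : FaithfulSMul (X.presheaf.stalk x) (X.residueField ξ) :=
    (faithfulSMul_iff_algebraMap_injective _ _).mpr hinj
  refine IsFractionRing.of_field _ _ fun z => ?_
  obtain ⟨z', rfl⟩ := IsLocalRing.residue_surjective (R := X.presheaf.stalk ξ) z
  letI : Algebra (X.presheaf.stalk x) (X.presheaf.stalk ξ) := (X.presheaf.stalkSpecializes h).hom.toAlgebra
  have hl : IsLocalization.AtPrime (X.presheaf.stalk ξ) (RingHom.ker (Cyc.specMap x ξ h)) :=
    isLocalization_stalkSpecializes h
  obtain ⟨a, s, rfl⟩ := IsLocalization.exists_mk'_eq (RingHom.ker (Cyc.specMap x ξ h)).primeCompl z'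
  refine ⟨a, s.1, ?_⟩
  have hs : algebraMap (X.presheaf.stalk x) (X.residueField ξ) s.1 ≠ 0 := s.2
  rw [eq_div_iff hs]
  have h3 := congrArg (IsLocalRing.residue (X.presheaf.stalk ξ))
    (IsLocalization.mk'_spec (X.presheaf.stalk ξ) a s)
  rw [map_mul] at h3
  exact h3

end Groth.Agent.Pi1.H408.FracRes
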