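import Groth.Agent.Pi1.H408.FieldQuot
import Groth.Agent.Pi1.H408.PrincRestrict
import Groth.Agent.Pi1.H421.PrincAlg
import Mathlib.AlgebraicGeometry.Morphisms.Preimmersion
import Mathlib.RingTheory.Algebraic.Integral

/-!
Residue fields of the points of a principal cover of the spectrum of a field.
-/

set_option autoImplicit false
set_option backward.isDefEq.respectTransparency false
universe u v
open CategoryTheory CategoryTheory.Limits AlgebraicGeometry

namespace Groth.Agent.Pi1.H408.PrincPoint

open Groth.Agent.Pi1.H421.PrincAlg Groth.Agent.Pi1.H421.GalAlg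

/-- A ring map from an integral algebra over a field to a field that is surjective on stalks is surjective. -/
theorem surjective_of_surjectiveOnStalks {K B L : Type*} [Field K] [CommRing B] [Algebra K B]
    [Algebra.IsIntegral K B] [Field L] [Algebra K L] (φ : B →ₐ[K] L)
    (h : φ.toRingHom.SurjectiveOnStalks) : Function.Surjective φ := by
  intro l
  obtain ⟨x, r, c, hc, hr, e⟩ := (RingHom.surjective_localRingHom_iff _).mp (h ⊥ inferInstance) l
  rw [Ideal.mem_bot] at hc hr
  rw [mul_assoc] at e
  have e2 : φ r * l = φ x := mul_left_cancel₀ hc e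
  have hr' : φ r ≠ 0 := hr
  have hint : IsIntegral K (φ r) := (Algebra.IsIntegral.isIntegral r).map φ
  have hinv : (φ r)⁻¹ ∈ φ.range := by
    have h1 : φ r ∈ φ.range := ⟨r, rfl⟩
    exact Subalgebra.inv_mem_of_algebraic (A := φ.range) (x := ⟨φ r, h1⟩) hint.isAlgebraic
  obtain ⟨s, hs⟩ := hinv
  refine ⟨s * x, ?_⟩
  rw [map_mul, ← e2]
  change φ s = (φ r)⁻¹ at hs
  rw [hs, inv_mul_cancel_left₀ hr']

/-- Let `P` be a principal `G`-cover of `Spec K` (`K` a field) and `t : Spec L → P` a morphism from the spectrum of a
field that is surjective on stalks. Then `L/K` is Galois with degree dividing the order of `G`. -/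
theorem isGalois_of_point (K : Type u) [Field K] (G : Type v) [Group G] [Finite G]
    (P : FEt.Cat (Spec (CommRingCat.of K))) (ρ : G →* Aut P) (hP : SGA1t.IsPrincipal G P ρ)
    (L : Type u) [Field L] [Algebra K L] (t : Spec (CommRingCat.of L) ⟶ P.left)
    (ht : t ≫ P.hom = Spec.map (CommRingCat.ofHom (algebraMap K L))) [SurjectiveOnStalks t] :
    IsGalois K L ∧ FiniteDimensional K L ∧ Module.finrank K L ∣ Nat.card G := by
  obtain ⟨B, _, _, hfin, het, _, hcomm, e, he, hact, hff, hfree, htrans⟩ := exists_algebra K G P ρ hP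
  have hinv : Algebra.IsInvariant K B G := isInvariant K hfree htrans
  let ψ : CommRingCat.of B ⟶ CommRingCat.of L := Spec.preimage (t ≫ e.hom)
  have hψ : Spec.map ψ = t ≫ e.hom := Spec.map_preimage _
  have hψ2 : CommRingCat.ofHom (algebraMap K B) ≫ ψ = CommRingCat.ofHom (algebraMap K L) := by
    apply Spec.map_injective
    rw [Spec.map_comp, hψ, Category.assoc, he, ht]
  let φ : B →ₐ[K] L := { ψ.hom with
    commutes' := fun x => congr($(hψ2).hom x) }
  have hsurj : φ.toRingHom.SurjectiveOnStalks := by
    have h1 : SurjectiveOnStalks (Spec.map ψ) := by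
      rw [hψ]; infer_instance
    exact SurjectiveOnStalks.Spec_iff.mp h1
  exact FieldQuot.isGalois_and_finrank_dvd G φ (surjective_of_surjectiveOnStalks φ hsurj)

end Groth.Agent.Pi1.H408.PrincPoint
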