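import Groth.Agent.Etalg.RamCrit

/-!
A finite Galois extension of degree prime to the residue characteristic exponent is tamely ramified.
-/

set_option autoImplicit false
open scoped Pointwise
universe u
open IsLocalRing EtRam

namespace Groth.Agent.Pi1.H408.TameGal

open Groth.Agent.Etalg.RamCrit

attribute [local instance] Ideal.Quotient.field

/-- A finite Galois extension of the fraction field of a DVR `A` whose degree is prime to the characteristic
exponent of the residue field is tamely ramified with respect to `A`. -/
theorem isTamelyRamified_of_coprime {A K M : Type u} [CommRing A] [IsDomain A]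
    [IsDiscreteValuationRing A] [Field K] [Algebra A K] [IsFractionRing A K] [Field M] [Algebra K M]
    [Algebra A M] [IsScalarTower A K M] [FiniteDimensional K M] [IsGalois K M]
    (q : ℕ) [ExpChar (A ⧸ maximalIdeal A) q] (h : Nat.Coprime q (Module.finrank K M)) :
    IsTamelyRamified A (algebraMap A M) := by
  let B := integralClosure A M
  have hfracB : IsFractionRing B M := IsIntegralClosure.isFractionRing_of_finite_extension A K M B
  have hdedB : IsDedekindDomain B := IsIntegralClosure.isDedekindDomain A K M B
  have hfinB : Module.Finite A B := IsIntegralClosure.finite A K M B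
  have hinjA : Function.Injective (algebraMap A M) := injective_algebraMap (K := K)
  have hinjAB : Function.Injective (algebraMap A B) := by
    rw [IsScalarTower.algebraMap_eq A B M, RingHom.coe_comp] at hinjA
    exact Function.Injective.of_comp hinjA
  have hTF : Module.IsTorsionFree A B := Module.isTorsionFree_iff_algebraMap_injective.mpr hinjAB
  have hflat : Module.Flat A B := inferInstance
  rw [isTamelyRamified_iff (K := K) B q]
  intro n hn hover
  have hG1 : IsGaloisGroup Gal(M/K) A B := IsGaloisGroup.of_isFractionRing Gal(M/K) A B K M
  have h1 := Ideal.ncard_primesOver_mul_ramificationIdxIn_mul_inertiaDegIn (maximalIdeal A) B Gal(M/K)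
  rw [IsGalois.card_aut_eq_finrank] at h1
  refine Nat.Coprime.coprime_dvd_right ?_ h
  rw [ramDeg]
  rw [← h1, Ideal.ramificationIdxIn_eq_ramificationIdx (maximalIdeal A) n Gal(M/K),
    Ideal.inertiaDegIn_eq_inertiaDeg (maximalIdeal A) n Gal(M/K)]
  refine dvd_mul_of_dvd_right (mul_dvd_mul_left _ ?_) _
  have h2 : n.inertiaDeg A = Module.finrank (A ⧸ maximalIdeal A) (B ⧸ n) := by
    exact (Ideal.inertiaDeg_eq_of_isMaximal (maximalIdeal A) n)
  rw [h2, ← Field.finSepDegree_mul_finInsepDegree]
  exact Dvd.intro_left _ rfl

end Groth.Agent.Pi1.H408.TameGal
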