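import Groth.Agent.Pi1.H408.PrincPoint
import Groth.Agent.Pi1.H408.FracRes
import Groth.Agent.Pi1.H408.TameGal

/-!
Tameness of a principal cover of order prime to the residue characteristic at a point of codimension one.
-/

set_option autoImplicit false
set_option backward.isDefEq.respectTransparency false
open CategoryTheory CategoryTheory.Limits AlgebraicGeometry
universe u v

namespace Groth.Agent.Pi1.H408.TamePoint

/-- Let `q : W → Z` and `w : W` be such that the fibre of `q` at `q w` is (near `w`) the fibre of a principal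
`G`-cover, with the order of `G` invertible at `y`, a point whose local ring is a DVR and which is a proper
specialization of `q w`. Then `κ(w)` is tamely ramified over `O_{Z,y}`. -/
theorem isTamelyRamified {U Z W : Scheme.{u}} (G : Type v) [Group G] [Finite G] (P : FEt.Cat U)
    (ρ : G →* Aut P) (hP : SGA1t.IsPrincipal G P ρ) (q : W ⟶ Z) (w : W)
    (η : Spec (Z.residueField (q w)) ⟶ U)
    (t : Spec (W.residueField w) ⟶ pullback P.hom η)
    (ht : t ≫ pullback.snd P.hom η = Spec.map (q.residueFieldMap w)) (hsurj : SurjectiveOnStalks t)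
    (y : Z) [IsDomain (Z.presheaf.stalk y)] (hdvr : IsDiscreteValuationRing (Z.presheaf.stalk y))
    (h : q w ⤳ y) (hne : q w ≠ y) (hunit : IsUnit ((Nat.card G : ℕ) : Z.residueField y)) :
    EtRam.IsTamelyRamified (Z.presheaf.stalk y)
      ((q.residueFieldMap w).hom.comp ((Z.residue (q w)).hom.comp (Z.presheaf.stalkSpecializes h).hom)) := by
  let alg1 : Algebra (Z.residueField (q w)) (W.residueField w) := (q.residueFieldMap w).hom.toAlgebra
  obtain ⟨hgal, hfin, hdvd⟩ := PrincPoint.isGalois_of_point (Z.residueField (q w)) G ((FEt.restrict η).obj P)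
    (((FEt.restrict η).mapAut P).comp ρ) (PrincRestrict.isPrincipal_restrict η P ρ hP)
    (W.residueField w) t ht
  let alg2 : Algebra (Z.presheaf.stalk y) (Z.residueField (q w)) :=
    ((Z.residue (q w)).hom.comp (Z.presheaf.stalkSpecializes h).hom).toAlgebra
  have hfrac : IsFractionRing (Z.presheaf.stalk y) (Z.residueField (q w)) :=
    FracRes.isFractionRing_residueField h hne hdvr
  let alg3 : Algebra (Z.presheaf.stalk y) (W.residueField w) :=
    ((q.residueFieldMap w).hom.comp
      ((Z.residue (q w)).hom.comp (Z.presheaf.stalkSpecializes h).hom)).toAlgebra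
  have htow : IsScalarTower (Z.presheaf.stalk y) (Z.residueField (q w)) (W.residueField w) :=
    IsScalarTower.of_algebraMap_eq fun _ => rfl
  let : Field (Z.presheaf.stalk y ⧸ IsLocalRing.maximalIdeal (Z.presheaf.stalk y)) :=
    Ideal.Quotient.field _
  obtain ⟨p, hp⟩ := ExpChar.exists (Z.presheaf.stalk y ⧸ IsLocalRing.maximalIdeal (Z.presheaf.stalk y))
  have hcop : Nat.Coprime p (Nat.card G) := by
    rcases hp with _ | ⟨hpp⟩
    · exact Nat.coprime_one_left _
    · rw [Nat.Prime.coprime_iff_not_dvd hpp]
      intro hd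
      have h2 : ((Nat.card G : ℕ) : Z.presheaf.stalk y ⧸
        IsLocalRing.maximalIdeal (Z.presheaf.stalk y)) = 0 := (CharP.cast_eq_zero_iff _ p _).mpr hd
      have h3 : IsUnit ((Nat.card G : ℕ) : Z.presheaf.stalk y ⧸
        IsLocalRing.maximalIdeal (Z.presheaf.stalk y)) := hunit
      rw [h2] at h3
      exact not_isUnit_zero h3
  exact TameGal.isTamelyRamified_of_coprime (K := Z.residueField (q w)) p
    (Nat.Coprime.coprime_dvd_right hdvd hcop)

end Groth.Agent.Pi1.H408.TamePoint
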